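import Cfsg.Agent.DihedralPush.Window

/-!
The chain of intersections of conjugates of a subgroup by powers of an element, when consecutive
intersections have prime index and are normal on one side, and no nontrivial normal subgroup is invariant.
-/

set_option autoImplicit false
open Subgroup CfsgLib.CubicAmalgam CfsgLib.DihedralPush
open scoped commutatorElement

namespace CfsgLib.PChain

variable {G : Type*} [Group G] [Finite G] {p : ℕ}

theorem sup_eq_of_prime (hp : p.Prime) {A B K : Subgroup G} (hA : A ≤ K) (hB : B ≤ K)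
    (h : Nat.card K = p * Nat.card A) (hBA : ¬ B ≤ A) : A ⊔ B = K := by
  refine Subgroup.eq_of_le_of_card_ge (sup_le hA hB) ?_
  obtain ⟨k, hk⟩ := card_dvd_of_le (le_sup_left : A ≤ A ⊔ B)
  have hne : Nat.card ↥(A ⊔ B) ≠ Nat.card A := fun e =>
    hBA ((le_sup_right : B ≤ A ⊔ B).trans (le_of_eq (Subgroup.eq_of_le_of_card_ge le_sup_left e.le).symm))
  have hd := card_dvd_of_le (sup_le hA hB : A ⊔ B ≤ K)
  rw [h, hk, mul_comm p] at hd
  rcases (Nat.dvd_prime hp).mp (Nat.dvd_of_mul_dvd_mul_left Nat.card_pos hd) with e | e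
  · exact absurd (by rw [hk, e, mul_one]) hne
  · rw [h, hk, e, mul_comm]

/-- Hypotheses on a subgroup and an element. -/
structure Push (p : ℕ) (P : Subgroup G) (h : G) : Prop where
  idx : (P ⊓ cj h P).relIndex (cj h P) = p
  nrm : cj h P ≤ normalizer ((P ⊓ cj h P : Subgroup G) : Set G)
  core : ∀ T ≤ P, P ≤ normalizer (T : Set G) → cj h T = T → T = ⊥

variable {P : Subgroup G} {h : G}

theorem Push.step (hp : p.Prime) (hP : Push p P h) (k : ℕ) :
    cj h (inter P h k) ≤ normalizer ((inter P h (k + 1) : Subgroup G) : Set G) ∧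
      ((inter P h (k + 1)).relIndex (cj h (inter P h k)) = 1 ∨
        (inter P h (k + 1)).relIndex (cj h (inter P h k)) = p) := by
  induction k with
  | zero => exact ⟨hP.nrm, Or.inr hP.idx⟩
  | succ k ih =>
    have hsub : cj h (inter P h (k + 1)) ≤ cj h (inter P h k) := cj_mono inf_le_left
    refine ⟨fun z hz => mem_normalizer_of_le fun w hw => ?_, ?_⟩
    · obtain ⟨hw1, hw2⟩ : w ∈ inter P h (k + 1) ⊓ cj h (inter P h (k + 1)) := hw
      exact ⟨conj_mem_of_normalizer (ih.1 (hsub hz)) hw1,
        Subgroup.mul_mem _ (Subgroup.mul_mem _ hz hw2) (Subgroup.inv_mem _ hz)⟩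
    · have he : (inter P h (k + 1 + 1)).relIndex (cj h (inter P h (k + 1))) =
          (inter P h (k + 1)).relIndex (cj h (inter P h (k + 1))) := inf_relIndex_right _ _
      rw [he]
      have hle : inter P h (k + 1) ≤ cj h (inter P h k) := inf_le_right
      haveI : ((inter P h (k + 1)).subgroupOf (cj h (inter P h k))).Normal :=
        (normal_subgroupOf_iff_le_normalizer hle).mpr ih.1
      have hd := relIndex_dvd_index_of_normal ((inter P h (k + 1)).subgroupOf (cj h (inter P h k)))
        ((cj h (inter P h (k + 1))).subgroupOf (cj h (inter P h k)))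
      rw [relIndex_subgroupOf hsub] at hd
      rcases ih.2 with e | e <;> rw [relIndex] at e <;> rw [e] at hd
      · exact Or.inl (Nat.dvd_one.mp hd)
      · exact (Nat.dvd_prime hp).mp hd

theorem Push.card_step (hp : p.Prime) (hP : Push p P h) (k : ℕ) :
    inter P h (k + 1) = inter P h k ∨ Nat.card ↥(inter P h k) = p * Nat.card ↥(inter P h (k + 1)) := by
  have hle : inter P h (k + 1) ≤ cj h (inter P h k) := inf_le_right
  have hmul := relIndex_card hle
  rw [card_cjx] at hmul
  rcases (hP.step hp k).2 with e | e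
  · rw [e, one_mul] at hmul
    exact Or.inl (Subgroup.eq_of_le_of_card_ge inf_le_left hmul.symm.le)
  · rw [e] at hmul
    exact Or.inr hmul.symm

theorem Push.exists_chain (hp : p.Prime) (hP : Push p P h) :
    ∃ (b : G) (r : ℕ), 1 ≤ r ∧ win h b 0 r = P ∧ ∀ k ≤ r, Nat.card ↥(win h b 0 k) = p ^ k := by
  classical
  have hex : ∃ k, inter P h (k + 1) = inter P h k := by
    by_contra hcon
    push Not at hcon
    have hlt : ∀ k, Nat.card ↥(inter P h k) + k ≤ Nat.card P := by
      intro k
      induction k with
      | zero => exact le_rfl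
      | succ k ih =>
        have h2 := (hP.card_step hp k).resolve_left (hcon k)
        have h3 : 0 < Nat.card ↥(inter P h (k + 1)) := Nat.card_pos
        have h4 : 2 * Nat.card ↥(inter P h (k + 1)) ≤ p * Nat.card ↥(inter P h (k + 1)) :=
          Nat.mul_le_mul_right _ hp.two_le
        omega
    have := hlt (Nat.card P + 1)
    omega
  set r := Nat.find hex with hr
  have hmin : ∀ k < r, Nat.card ↥(inter P h k) = p * Nat.card ↥(inter P h (k + 1)) := fun k hk =>
    (hP.card_step hp k).resolve_left (Nat.find_min hex hk)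
  set T := inter P h r with hT
  have hTfix : cj h T = T := by
    have h1 : T ≤ cj h T := by
      rw [hT]
      nth_rw 1 [← Nat.find_spec hex]
      exact inf_le_right
    exact (Subgroup.eq_of_le_of_card_ge h1 (le_of_eq (card_cjx h T))).symm
  have hTfix' : cj h⁻¹ T = T := by nth_rw 1 [← hTfix]; rw [← cj_mul, inv_mul_cancel, cj_one]
  have hgen : ∀ j, j + 1 < r → inter P h (j + 1) ⊔ cj h⁻¹ (inter P h (j + 1)) = inter P h j := by
    intro j hj
    have hle : cj h⁻¹ (inter P h (j + 1)) ≤ inter P h j := by
      refine (cj_mono (inf_le_right : inter P h (j + 1) ≤ cj h (inter P h j))).trans (le_of_eq ?_)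
      rw [← cj_mul, inv_mul_cancel, cj_one]
    refine sup_eq_of_prime hp inf_le_left hle (hmin j (by omega)) fun hcon => Nat.find_min hex hj ?_
    have := cj_mono (g := h) hcon
    rw [← cj_mul, mul_inv_cancel, cj_one] at this
    exact inf_eq_left.mpr this
  have hnorm : ∀ d, ∀ j, j + d = r → inter P h j ≤ normalizer (T : Set G) := by
    intro d
    induction d with
    | zero => intro j hj; rw [show j = r by omega]; exact le_normalizer
    | succ d ih =>
      intro j hj
      rcases Nat.eq_zero_or_pos d with rfl | hd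
      · have h1 : cj h (inter P h j) ≤ normalizer (T : Set G) := by
          rw [hT, show r = j + 1 by omega]
          exact (hP.step hp j).1
        intro x hx
        have h2 := normalizer_cj (g := h⁻¹) (h1 ⟨x, hx, rfl⟩)
        rw [hTfix'] at h2
        simpa [mul_assoc] using h2
      · rw [← hgen j (by omega)]
        refine sup_le (ih (j + 1) (by omega)) ?_
        intro x hx
        rw [mem_cj, inv_inv] at hx
        have h1 := normalizer_cj (g := h⁻¹) (ih (j + 1) (by omega) hx)
        rw [hTfix'] at h1
        simpa [mul_assoc] using h1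
  have hTbot : T = ⊥ := hP.core T (inter_le P h r) (hnorm r 0 (by omega)) hTfix
  have hcard : ∀ d, ∀ j, j + d = r → Nat.card ↥(inter P h j) = p ^ d := by
    intro d
    induction d with
    | zero => intro j hj; rw [show j = r by omega, ← hT, hTbot]; simp
    | succ d ih =>
      intro j hj
      rw [hmin j (by omega), ih (j + 1) (by omega), pow_succ, Nat.mul_comm]
  have hr1 : 1 ≤ r := by
    by_contra hcon
    have h1 : inter P h 1 = inter P h 0 := by
      have := Nat.find_spec hex
      rwa [show Nat.find hex = 0 by omega] at this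
    have h2 := hP.idx
    rw [show P ⊓ cj h P = P from h1] at h2
    have h3 : P.relIndex (cj h P) * Nat.card P = Nat.card P := by
      rw [relIndex_card (show P ≤ cj h P from inf_eq_left.mp h1), card_cjx]
    rw [h2] at h3
    exact hp.one_lt.ne' (Nat.eq_of_mul_eq_mul_right Nat.card_pos (h3.trans (one_mul _).symm))
  let D : ℕ → Subgroup G := fun k => cj (h ^ (r - k))⁻¹ (inter P h (r - k))
  have hD1 : Nat.card ↥(D 1) = p := by
    show Nat.card ↥(cj _ _) = p
    rw [card_cjx, hcard 1 (r - 1) (by omega), pow_one]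
  obtain ⟨b, hbD⟩ : ∃ b, D 1 = zpowers b := by
    haveI : Fact p.Prime := ⟨hp⟩
    haveI : IsCyclic ↥(D 1) := isCyclic_of_prime_card hD1
    obtain ⟨⟨b, hb⟩, hgenb⟩ := isCyclic_iff_exists_zpowers_eq_top.mp (inferInstance : IsCyclic ↥(D 1))
    refine ⟨b, ?_⟩
    have := congrArg (Subgroup.map (D 1).subtype) hgenb
    rw [MonoidHom.map_zpowers, ← MonoidHom.range_eq_map, Subgroup.range_subtype] at this
    exact this.symm
  have hwinD : ∀ k ≤ r, win h b 0 k = D k := by
    intro k
    induction k with
    | zero =>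
      intro _
      show _ = cj _ (inter P h (r - 0))
      rw [win_zero, Nat.sub_zero, ← hT, hTbot, cj, Subgroup.map_bot]
    | succ k ih =>
      intro hk
      rcases Nat.eq_zero_or_pos k with rfl | hk1
      · rw [hbD]
        refine le_antisymm (win_le fun j _ h2 => ?_) ?_
        · obtain rfl : j = 0 := by omega
          simp [el]
        · rw [zpowers_le]
          simpa [el] using el_mem_win h b (le_refl 0) (show 0 < 0 + 1 by omega)
      · have hs : win h b (0 + 1) k = cj h (D k) := by
          rw [← cj_win, pow_one, ih (by omega)]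
        rw [win_succ h b 0 k hk1, hs, ih (by omega)]
        show cj _ _ ⊔ cj h (cj _ _) = cj _ _
        obtain ⟨j, hj⟩ : ∃ j, r - (k + 1) = j ∧ r - k = j + 1 := ⟨_, rfl, by omega⟩
        rw [hj.1, hj.2, ← hgen j (by omega), cj_sup, ← cj_mul, ← cj_mul]
        have e1 : h * (h ^ (j + 1))⁻¹ = (h ^ j)⁻¹ := by rw [pow_succ, mul_inv_rev]; group
        have e2 : (h ^ j)⁻¹ * h⁻¹ = (h ^ (j + 1))⁻¹ := by rw [← mul_inv_rev, ← pow_succ']
        rw [e1, e2, sup_comm]
  refine ⟨b, r, hr1, ?_, fun k hk => ?_⟩
  · rw [hwinD r le_rfl]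
    show cj _ (inter P h (r - r)) = P
    rw [Nat.sub_self, pow_zero, inv_one, cj_one]
    rfl
  · rw [hwinD k hk]
    show Nat.card ↥(cj _ _) = _
    rw [card_cjx, hcard k (r - k) (by omega)]

end CfsgLib.PChain
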