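import Cfsg.Agent.PChain.Window

/-!
The order of a subgroup meeting a conjugate in a normal subgroup of prime index.
-/

set_option autoImplicit false
open Subgroup CfsgLib.CubicAmalgam CfsgLib.DihedralPush
open scoped Pointwise

namespace CfsgLib.PChain

theorem main {G : Type*} [Group G] [Finite G] (P : Subgroup G) (g : G) (p : ℕ) (hp : p.Prime)
    (hN : ((P ⊓ MulAut.conj g⁻¹ • P).subgroupOf (MulAut.conj g⁻¹ • P)).Normal)
    (hidx : (P ⊓ MulAut.conj g⁻¹ • P).relIndex (MulAut.conj g⁻¹ • P) = p)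
    (n : ℕ) (hn : 1 ≤ n) (K : Subgroup G)
    (hK : K = ⨆ i ∈ Finset.range (n + 1), MulAut.conj (g ^ i)⁻¹ • P)
    (h1 : ∀ Q : Subgroup G, Q ≤ P → (Q.subgroupOf P).Normal → MulAut.conj g • Q = Q → Q = ⊥)
    (h2 : P ⊓ (Subgroup.center K).map K.subtype = ⊥) :
    ∃ t : ℕ, Nat.card P = p ^ t ∧ 1 ≤ t ∧ t ≤ 3 * n ∧ t ≠ 3 * n - 1 := by
  set h := g⁻¹ with hh
  have hconj : ∀ (x : G) (X : Subgroup G), MulAut.conj x • X = cj x X := fun _ _ => rfl
  rw [hconj] at hN hidx
  have hpush : Push p P h := by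
    refine ⟨hidx, (normal_subgroupOf_iff_le_normalizer inf_le_right).mp hN, fun T hTP hT hhT => ?_⟩
    refine h1 T hTP ((normal_subgroupOf_iff_le_normalizer hTP).mpr hT) ?_
    rw [hconj]
    nth_rw 1 [← hhT]
    rw [← cj_mul, hh, mul_inv_cancel, cj_one]
  obtain ⟨b, r, hr1, hwP, hcard⟩ := hpush.exists_chain hp
  have hreg : Regular p h b r := ⟨hp, hr1, hcard⟩
  have hKeq : ∀ i ≤ n, MulAut.conj (g ^ i)⁻¹ • P = win h b i r := fun i _ => by
    rw [hconj, ← hwP, show (g ^ i)⁻¹ = h ^ i by rw [hh, inv_pow], cj_win, Nat.zero_add]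
  obtain ⟨t1, t2⟩ := hreg.bound hn fun q hq => by
    by_contra hcon
    push Not at hcon
    have hKle : K ≤ centralizer ({el h b q} : Set G) := by
      rw [hK]
      refine iSup₂_le fun i hi => ?_
      rw [hKeq i (Nat.lt_succ_iff.mp (Finset.mem_range.mp hi))]
      have hin : i ≤ n := Nat.lt_succ_iff.mp (Finset.mem_range.mp hi)
      exact win_le fun j h3 h4 => mem_centralizer_singleton_iff.mpr (hcon j (by omega)).eq.symm
    have hqP : el h b q ∈ P := hwP ▸ el_mem_win h b (Nat.zero_le q) (by omega)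
    have hqK : el h b q ∈ K := by
      rw [hK]
      refine mem_iSup_of_mem 0 (mem_iSup_of_mem (Finset.mem_range.mpr (Nat.succ_pos n)) ?_)
      rwa [pow_zero, inv_one, map_one, one_smul]
    have hz : el h b q ∈ P ⊓ (Subgroup.center K).map K.subtype :=
      ⟨hqP, ⟨el h b q, hqK⟩, mem_center_iff.mpr fun x =>
        Subtype.ext (mem_centralizer_singleton_iff.mp (hKle x.2)), rfl⟩
    rw [h2, mem_bot] at hz
    exact hreg.not_left (i := q) (k := 0) hr1 (by rw [hz]; exact one_mem _)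
  exact ⟨r, by rw [← hwP, hcard r le_rfl], hr1, t1, t2⟩

end CfsgLib.PChain
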