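import Cfsg.Agent.PChain.Chain

/-!
Commutation in the chain of elements of prime order: the length is at most three times the common rank.
-/

set_option autoImplicit false
open Subgroup CfsgLib.CubicAmalgam CfsgLib.DihedralPush
open scoped commutatorElement

namespace CfsgLib.PChain

variable {G : Type*} [Group G] [Finite G] {g b : G} {p r : ℕ}

/-- The windows have the expected orders up to length `r`. -/
structure Regular (p : ℕ) (g b : G) (r : ℕ) : Prop where
  prime : p.Prime
  one_le : 1 ≤ r
  zero : ∀ k ≤ r, Nat.card ↥(win g b 0 k) = p ^ k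

theorem Regular.card (h : Regular p g b r) (i : ℕ) {k : ℕ} (hk : k ≤ r) : Nat.card ↥(win g b i k) = p ^ k := by
  rw [← Nat.zero_add i, ← cj_win, card_cjx, h.zero k hk]

theorem Regular.not_left (h : Regular p g b r) {i k : ℕ} (hk : k + 1 ≤ r) : el g b i ∉ win g b (i + 1) k := by
  intro hcon
  have hle : win g b i (k + 1) ≤ win g b (i + 1) k := win_le fun j h1 h2 => by
    rcases Nat.eq_or_lt_of_le h1 with rfl | h1'
    · exact hcon
    · exact el_mem_win g b h1' (by omega)
  have := card_le_of_le hle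
  rw [h.card i hk, h.card (i + 1) (by omega)] at this
  exact absurd this (Nat.not_le.mpr (Nat.pow_lt_pow_right h.prime.one_lt (Nat.lt_succ_self k)))

theorem Regular.not_right (h : Regular p g b r) {i k : ℕ} (hk : k + 1 ≤ r) : el g b (i + k) ∉ win g b i k := by
  intro hcon
  have hle : win g b i (k + 1) ≤ win g b i k := win_le fun j h1 h2 => by
    rcases Nat.eq_or_lt_of_le (show j ≤ i + k by omega) with rfl | h1'
    · exact hcon
    · exact el_mem_win g b h1 h1'
  have := card_le_of_le hle
  rw [h.card i hk, h.card i (by omega)] at this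
  exact absurd this (Nat.not_le.mpr (Nat.pow_lt_pow_right h.prime.one_lt (Nat.lt_succ_self k)))

theorem Regular.pow_p (h : Regular p g b r) (i : ℕ) : el g b i ^ p = 1 := by
  have hm := el_mem_win g b (le_refl i) (show i < i + 1 by omega)
  have hc : Nat.card ↥(win g b i 1) = p := by rw [h.card i h.one_le, pow_one]
  have := congrArg Subtype.val (pow_card_eq_one' (x := (⟨_, hm⟩ : ↥(win g b i 1))))
  rw [hc] at this
  simpa using this

theorem Regular.pow_eq_one (h : Regular p g b r) (i j : ℕ) {A : Subgroup G} (hA : el g b i ∉ A)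
    (hj : el g b i ^ j ∈ A) : el g b i ^ j = 1 := by
  haveI : Fact p.Prime := ⟨h.prime⟩
  by_cases hd : p ∣ j
  · obtain ⟨c, rfl⟩ := hd
    rw [pow_mul, h.pow_p, one_pow]
  · exfalso
    apply hA
    have hcop : Nat.gcd j p = 1 := ((Nat.Prime.coprime_iff_not_dvd h.prime).mpr hd).symm
    have e : el g b i = el g b i ^ ((Nat.gcd j p : ℕ) : ℤ) := by rw [hcop]; simp
    rw [e, Nat.gcd_eq_gcd_ab, zpow_add, zpow_mul, zpow_mul, zpow_natCast, zpow_natCast, h.pow_p, one_zpow, mul_one]
    exact zpow_mem hj _

theorem Regular.normal (h : Regular p g b r) {A : Subgroup G} {i k : ℕ} (hk : k + 1 ≤ r)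
    (hA : A ≤ win g b i (k + 1)) (hc : Nat.card A = p ^ k) :
    win g b i (k + 1) ≤ normalizer (A : Set G) := by
  haveI : (A.subgroupOf (win g b i (k + 1))).Normal := by
    apply Subgroup.normal_of_index_eq_minFac_card
    have h1 := (A.subgroupOf (win g b i (k + 1))).card_mul_index
    rw [Nat.card_congr (subgroupOfEquivOfLe hA).toEquiv, hc, h.card i hk, pow_succ] at h1
    rw [h.card i hk, Nat.Prime.pow_minFac h.prime (Nat.succ_ne_zero k)]
    exact Nat.eq_of_mul_eq_mul_left (pow_pos h.prime.pos k) h1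
  exact (Subgroup.normal_subgroupOf_iff_le_normalizer hA).mp inferInstance

theorem Regular.normal_left (h : Regular p g b r) {i k : ℕ} (hk : k + 1 ≤ r) :
    win g b i (k + 1) ≤ normalizer (win g b (i + 1) k : Set G) :=
  h.normal hk (win_mono g b (by omega) (by omega)) (h.card _ (by omega))

theorem Regular.normal_right (h : Regular p g b r) {i k : ℕ} (hk : k + 1 ≤ r) :
    win g b i (k + 1) ≤ normalizer (win g b i k : Set G) :=
  h.normal hk (win_mono g b le_rfl (by omega)) (h.card _ (by omega))

theorem Regular.lead (h : Regular p g b r) {i k : ℕ} (hk : k + 1 ≤ r) {z : G} (hz : z ∈ win g b i (k + 1)) :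
    ∃ j : ℕ, ∃ z' ∈ win g b (i + 1) k, z = el g b i ^ j * z' := by
  have hN : zpowers (el g b i) ≤ normalizer (win g b (i + 1) k : Set G) :=
    zpowers_le.mpr (h.normal_left hk (el_mem_win g b le_rfl (by omega)))
  have hle : win g b i (k + 1) ≤ zpowers (el g b i) ⊔ win g b (i + 1) k := win_le fun j h1 h2 => by
    rcases Nat.eq_or_lt_of_le h1 with rfl | h1'
    · exact mem_sup_left (mem_zpowers _)
    · exact mem_sup_right (el_mem_win g b h1' (by omega))
  have h2 : z ∈ ((zpowers (el g b i) ⊔ win g b (i + 1) k : Subgroup G) : Set G) := hle hz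
  rw [coe_mul_of_left_le_normalizer_right _ _ hN] at h2
  obtain ⟨u, hu, z', hz', rfl⟩ := Set.mem_mul.mp h2
  obtain ⟨j, rfl⟩ := Submonoid.mem_powers_iff _ _ |>.mp ((isOfFinOrder_of_finite _).mem_powers_iff_mem_zpowers.mpr hu)
  exact ⟨j, z', hz', rfl⟩

theorem Regular.tail (h : Regular p g b r) {i k : ℕ} (hk : k + 1 ≤ r) {z : G} (hz : z ∈ win g b i (k + 1)) :
    ∃ j : ℕ, ∃ z' ∈ win g b i k, z = el g b (i + k) ^ j * z' := by
  have hN : zpowers (el g b (i + k)) ≤ normalizer (win g b i k : Set G) :=
    zpowers_le.mpr (h.normal_right hk (el_mem_win g b (by omega) (by omega)))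
  have hle : win g b i (k + 1) ≤ zpowers (el g b (i + k)) ⊔ win g b i k := win_le fun j h1 h2 => by
    rcases Nat.eq_or_lt_of_le (show j ≤ i + k by omega) with rfl | h1'
    · exact mem_sup_left (mem_zpowers _)
    · exact mem_sup_right (el_mem_win g b h1 h1')
  have h2 : z ∈ ((zpowers (el g b (i + k)) ⊔ win g b i k : Subgroup G) : Set G) := hle hz
  rw [coe_mul_of_left_le_normalizer_right _ _ hN] at h2
  obtain ⟨u, hu, z', hz', rfl⟩ := Set.mem_mul.mp h2
  obtain ⟨j, rfl⟩ := Submonoid.mem_powers_iff _ _ |>.mp ((isOfFinOrder_of_finite _).mem_powers_iff_mem_zpowers.mpr hu)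
  exact ⟨j, z', hz', rfl⟩

theorem Regular.disjoint (h : Regular p g b r) (L : ℕ) : ∀ (k a c : ℕ), a + k ≤ c → c + L ≤ a + r →
    ∀ z, z ∈ win g b a k → z ∈ win g b c L → z = 1 := by
  intro k
  induction k with
  | zero => intro a c _ _ z hz _; rw [win_zero, mem_bot] at hz; exact hz
  | succ k ih =>
    intro a c h1 h2 z hz hz'
    obtain ⟨j, z', hz'', rfl⟩ := h.lead (by omega) hz
    have hmem : el g b a ^ j ∈ win g b (a + 1) (c + L - (a + 1)) := by
      have ha := win_mono g b (i := c) (k := L) (i' := a + 1) (k' := c + L - (a + 1)) (by omega) (by omega) hz'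
      have hb := win_mono g b (i := a + 1) (k := k) (i' := a + 1) (k' := c + L - (a + 1)) le_rfl (by omega) hz''
      have := Subgroup.mul_mem _ ha (Subgroup.inv_mem _ hb)
      rwa [mul_inv_cancel_right] at this
    have h1' := h.pow_eq_one a j (h.not_left (i := a) (k := c + L - (a + 1)) (by omega)) hmem
    rw [h1', one_mul] at hz' ⊢
    exact ih (a + 1) c (by omega) (by omega) z' hz'' hz'

theorem Regular.inf_win (h : Regular p g b r) {i k : ℕ} (hk : k + 2 ≤ r) :
    win g b i (k + 1) ⊓ win g b (i + 1) (k + 1) = win g b (i + 1) k := by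
  refine le_antisymm (fun z hz => ?_) (le_inf (win_mono g b (by omega) (by omega)) (win_mono g b le_rfl (by omega)))
  obtain ⟨j, z', hz', rfl⟩ := h.lead (by omega) hz.1
  have hmem : el g b i ^ j ∈ win g b (i + 1) (k + 1) := by
    have := Subgroup.mul_mem _ hz.2 (Subgroup.inv_mem _ (win_mono g b (i := i + 1) (k := k) (i' := i + 1) (k' := k + 1) le_rfl (by omega) hz'))
    rwa [mul_inv_cancel_right] at this
  rw [h.pow_eq_one i j (h.not_left hk) hmem, one_mul]
  exact hz'

theorem Regular.comm_mem (h : Regular p g b r) {i d : ℕ} (hd : d + 2 ≤ r) :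
    ⁅el g b i, el g b (i + d + 1)⁆ ∈ win g b (i + 1) d := by
  rw [← h.inf_win hd]
  have hi : el g b i ∈ win g b i (d + 2) := el_mem_win g b le_rfl (by omega)
  have hj : el g b (i + d + 1) ∈ win g b i (d + 2) := el_mem_win g b (by omega) (by omega)
  have hiA : el g b i ∈ win g b i (d + 1) := el_mem_win g b le_rfl (by omega)
  have hjB : el g b (i + d + 1) ∈ win g b (i + 1) (d + 1) := el_mem_win g b (by omega) (by omega)
  refine ⟨?_, ?_⟩
  · rw [commutatorElement_def, mul_assoc, mul_assoc]
    refine Subgroup.mul_mem _ hiA ?_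
    rw [← mul_assoc]
    exact conj_mem_of_normalizer (h.normal_right hd hj) (inv_mem hiA)
  · rw [commutatorElement_def]
    exact Subgroup.mul_mem _ (conj_mem_of_normalizer (h.normal_left hd hi) hjB) (Subgroup.inv_mem _ hjB)

theorem Regular.commute_root (h : Regular p g b r) {i j : ℕ} {z : G} (hc : Commute (el g b i ^ j) z)
    (hn : ¬ Commute (el g b i) z) : el g b i ^ j = 1 :=
  h.pow_eq_one i j (A := centralizer ({z} : Set G)) (fun hm => hn (mem_centralizer_singleton_iff.mp hm))
    (mem_centralizer_singleton_iff.mpr hc.eq)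

theorem Regular.drop_left (h : Regular p g b r) {m : ℕ} (hm : Near g b m)
    (hf : ¬ Commute (el g b 0) (el g b (m + 1))) {i k : ℕ} (hk : k + 1 ≤ r) (hk2 : k ≤ 2 * m + 1)
    {z : G} (hz : z ∈ win g b i (k + 1)) (hc : Commute z (el g b (i + m + 1))) : z ∈ win g b (i + 1) k := by
  obtain ⟨j, z', hz', rfl⟩ := h.lead hk hz
  have h1 := hm.comm_win (q := i + m + 1) (fun j h1 h2 => ⟨by omega, by omega⟩) hz'
  have h2 := hc.mul_left h1.inv_left
  rw [mul_inv_cancel_right] at h2
  rw [h.commute_root h2 (not_commute_far hf i), one_mul]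
  exact hz'

theorem Regular.drop_right (h : Regular p g b r) {m : ℕ} (hm : Near g b m)
    (hf : ¬ Commute (el g b 0) (el g b (m + 1))) {i k : ℕ} (hk : k + 1 ≤ r) (hk2 : k ≤ 2 * m + 1)
    (hik : m + 1 ≤ i + k) {z : G} (hz : z ∈ win g b i (k + 1)) (hc : Commute z (el g b (i + k - (m + 1)))) :
    z ∈ win g b i k := by
  obtain ⟨j, z', hz', rfl⟩ := h.tail hk hz
  have h1 := hm.comm_win (q := i + k - (m + 1)) (fun j h1 h2 => ⟨by omega, by omega⟩) hz'
  have h2 := hc.mul_left h1.inv_left
  rw [mul_inv_cancel_right] at h2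
  have hn : ¬ Commute (el g b (i + k)) (el g b (i + k - (m + 1))) := fun hh =>
    not_commute_far hf (i + k - (m + 1)) (by
      rw [show i + k - (m + 1) + m + 1 = i + k by omega]
      exact hh.symm)
  rw [h.commute_root h2 hn, one_mul]
  exact hz'

theorem Regular.not_long (h : Regular p g b r) {m : ℕ} (hm : Near g b m)
    (hf : ¬ Commute (el g b 0) (el g b (m + 1))) : r ≤ 2 * m + 1 := by
  by_contra hcon
  set W := win g b 0 (2 * m + 2) with hW
  have hWc : Nat.card ↥W = p ^ (2 * m + 2) := h.zero _ (by omega)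
  haveI : Fact p.Prime := ⟨h.prime⟩
  have hWp : IsPGroup p ↥W := IsPGroup.of_card hWc
  haveI : Nontrivial ↥W := Finite.one_lt_card_iff_nontrivial.mp (by
    rw [hWc]; exact Nat.one_lt_pow (by omega) h.prime.one_lt)
  haveI := hWp.center_nontrivial
  obtain ⟨⟨⟨z, hzW⟩, hzc⟩, hz1⟩ := exists_ne (1 : ↥(center ↥W))
  have hcomm : ∀ q, q < 2 * m + 2 → Commute z (el g b q) := fun q hq => by
    have := mem_center_iff.mp hzc ⟨el g b q, el_mem_win g b (Nat.zero_le q) (by omega)⟩
    exact (congrArg Subtype.val this).symm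
  have hstep : ∀ s, s ≤ m + 1 → z ∈ win g b s (2 * m + 2 - s) := by
    intro s
    induction s with
    | zero => exact fun _ => hzW
    | succ s ih =>
      intro hs
      have h1 := ih (by omega)
      rw [show 2 * m + 2 - s = (2 * m + 1 - s) + 1 by omega] at h1
      rw [show 2 * m + 2 - (s + 1) = 2 * m + 1 - s by omega]
      exact h.drop_left hm hf (by omega) (by omega) h1 (hcomm _ (by omega))
  have hdown : ∀ e, e ≤ m + 1 → z ∈ win g b (m + 1) (m + 1 - e) := by
    intro e
    induction e with
    | zero => exact fun _ => by simpa [show 2 * m + 2 - (m + 1) = m + 1 by omega] using hstep (m + 1) le_rfl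
    | succ e ih =>
      intro he
      have h1 := ih (by omega)
      rw [show m + 1 - e = (m - e) + 1 by omega] at h1
      rw [show m + 1 - (e + 1) = m - e by omega]
      exact h.drop_right hm hf (by omega) (by omega) (by omega) h1 (hcomm _ (by omega))
  have := hdown (m + 1) le_rfl
  rw [Nat.sub_self, win_zero, mem_bot] at this
  exact hz1 (Subtype.ext (Subtype.ext this))

theorem Regular.center_win (h : Regular p g b r) {m : ℕ} (hm : Near g b m)
    (hf : ¬ Commute (el g b 0) (el g b (m + 1))) (hmr : m + 1 ≤ r - 1) {z : G} (hz : z ∈ win g b 0 r)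
    (hc : ∀ q < r, Commute z (el g b q)) : z ∈ win g b (r - 1 - m) (2 * m + 2 - r) := by
  have hr := h.not_long hm hf
  have hstep : ∀ s, s ≤ r - 1 - m → z ∈ win g b s (r - s) := by
    intro s
    induction s with
    | zero => exact fun _ => hz
    | succ s ih =>
      intro hs
      have h1 := ih (by omega)
      rw [show r - s = (r - s - 1) + 1 by omega] at h1
      rw [show r - (s + 1) = r - s - 1 by omega]
      exact h.drop_left hm hf (by omega) (by omega) h1 (hc _ (by omega))
  have hdown : ∀ e, e ≤ r - (m + 1) → z ∈ win g b (r - 1 - m) (m + 1 - e) := by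
    intro e
    induction e with
    | zero => exact fun _ => by simpa [show r - (r - 1 - m) = m + 1 by omega] using hstep _ le_rfl
    | succ e ih =>
      intro he
      have h1 := ih (by omega)
      rw [show m + 1 - e = (m - e) + 1 by omega] at h1
      rw [show m + 1 - (e + 1) = m - e by omega]
      exact h.drop_right hm hf (by omega) (by omega) (by omega) h1 (hc _ (by omega))
  have := hdown (r - (m + 1)) le_rfl
  rwa [show m + 1 - (r - (m + 1)) = 2 * m + 2 - r by omega] at this

theorem Regular.comm_central (h : Regular p g b r) {m : ℕ} (hm : Near g b m) (hr : r ≤ 2 * m + 1) {i : ℕ}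
    (hi : i + m + 2 ≤ r) {k : ℕ} (hk : k < r) :
    Commute ⁅el g b i, el g b (i + m + 1)⁆ (el g b k) := by
  set x := el g b i with hx
  set y := el g b (i + m + 1) with hy
  have hw : ⁅x, y⁆ ∈ win g b (i + 1) m := h.comm_mem (by omega)
  by_cases h1 : i ≤ k ∧ k ≤ i + m + 1
  · exact hm.comm_win (fun j h2 h3 => ⟨by omega, by omega⟩) hw
  set a := el g b k with ha
  have key : a * ⁅x, y⁆ * a⁻¹ = ⁅x, y⁆ := by
    rw [conjugate_commutatorElement]
    by_cases h2 : k < i
    · have hax : Commute a x := hm.comm (by omega) (by omega)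
      have e1 : a * x * a⁻¹ = x := by rw [hax.eq, mul_inv_cancel_right]
      have hc : y⁻¹ * (a * y * a⁻¹) ∈ win g b (k + 1) (i + m - k) := by
        have hh := h.comm_mem (i := k) (d := i + m - k) (by omega)
        rw [show k + (i + m - k) + 1 = i + m + 1 by omega, ← ha, ← hy] at hh
        have hyn : y ∈ win g b (k + 1) (i + m - k + 1) := el_mem_win g b (by omega) (by omega)
        have := conj_mem_of_normalizer (inv_mem (h.normal_right (by omega) hyn)) hh
        rw [commutatorElement_def, inv_inv] at this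
        have he : y⁻¹ * (a * y * a⁻¹ * y⁻¹) * y = y⁻¹ * (a * y * a⁻¹) := by group
        rwa [he] at this
      have hcx : Commute (y⁻¹ * (a * y * a⁻¹)) x := hm.comm_win (fun j h3 h4 => ⟨by omega, by omega⟩) hc
      rw [e1, show a * y * a⁻¹ = y * (y⁻¹ * (a * y * a⁻¹)) by group]
      generalize y⁻¹ * (a * y * a⁻¹) = c at hcx
      calc ⁅x, y * c⁆ = x * y * (c * x⁻¹) * c⁻¹ * y⁻¹ := by simp only [commutatorElement_def, mul_inv_rev, mul_assoc]
        _ = x * y * (x⁻¹ * c) * c⁻¹ * y⁻¹ := by rw [hcx.inv_right.eq]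
        _ = ⁅x, y⁆ := by rw [commutatorElement_def]; group
    · have hay : Commute a y := hm.comm (by omega) (by omega)
      have e1 : a * y * a⁻¹ = y := by rw [hay.eq, mul_inv_cancel_right]
      have hc : x⁻¹ * (a * x * a⁻¹) ∈ win g b (i + 1) (k - i - 1) := by
        have hh := inv_mem (h.comm_mem (i := i) (d := k - i - 1) (by omega))
        rw [show i + (k - i - 1) + 1 = k by omega, ← hx, ← ha, commutatorElement_inv] at hh
        have hxn : x ∈ win g b i (k - i - 1 + 1) := el_mem_win g b le_rfl (by omega)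
        have := conj_mem_of_normalizer (inv_mem (h.normal_left (by omega) hxn)) hh
        rw [commutatorElement_def, inv_inv] at this
        have he : x⁻¹ * (a * x * a⁻¹ * x⁻¹) * x = x⁻¹ * (a * x * a⁻¹) := by group
        rwa [he] at this
      have hcy : Commute (x⁻¹ * (a * x * a⁻¹)) y := hm.comm_win (fun j h3 h4 => ⟨by omega, by omega⟩) hc
      rw [e1, show a * x * a⁻¹ = x * (x⁻¹ * (a * x * a⁻¹)) by group]
      generalize x⁻¹ * (a * x * a⁻¹) = c at hcy
      calc ⁅x * c, y⁆ = x * (c * y) * c⁻¹ * x⁻¹ * y⁻¹ := by simp only [commutatorElement_def, mul_inv_rev, mul_assoc]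
        _ = x * (y * c) * c⁻¹ * x⁻¹ * y⁻¹ := by rw [hcy.eq]
        _ = ⁅x, y⁆ := by rw [commutatorElement_def]; group
  calc ⁅x, y⁆ * a = a * ⁅x, y⁆ * a⁻¹ * a := by rw [key]
    _ = a * ⁅x, y⁆ := by group

/-- The bound on the length of the chain. -/
theorem Regular.bound (h : Regular p g b r) {n : ℕ} (hn : 1 ≤ n)
    (hC : ∀ q < r, ∃ k, k < r + n ∧ ¬ Commute (el g b q) (el g b k)) : r ≤ 3 * n ∧ r ≠ 3 * n - 1 := by
  classical
  by_cases hab : Near g b (r - 1)
  · have : r ≤ n := by
      by_contra hcon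
      obtain ⟨k, hk, hne⟩ := hC n (by omega)
      exact hne (hab.comm (by omega) (by omega))
    omega
  have hex : ∃ m, ¬ Near g b (m + 1) := by
    by_cases hr2 : 2 ≤ r
    · exact ⟨r - 2, by rwa [show r - 2 + 1 = r - 1 by omega]⟩
    · exact absurd (fun d hd => by rw [show d = 0 by omega]) hab
  set m := Nat.find hex with hmdef
  have h0 : Near g b 0 := fun d hd => by rw [show d = 0 by omega]
  have hm : Near g b m := by
    rcases Nat.eq_zero_or_pos m with e | e
    · rw [e]; exact h0
    · have := Nat.find_min hex (show m - 1 < m by omega)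
      rw [not_not, show m - 1 + 1 = m by omega] at this
      exact this
  have hf : ¬ Commute (el g b 0) (el g b (m + 1)) := fun hc => Nat.find_spec hex fun d hd => by
    rcases Nat.eq_or_lt_of_le hd with rfl | hd'
    · exact hc
    · exact hm d (Nat.le_of_lt_succ hd')
  have hmr : m + 1 ≤ r - 1 := by
    by_contra hcon
    exact hab fun d hd => hm d (by omega)
  have hlong := h.not_long hm hf
  have hcen : 2 * m + 2 ≤ r + n := by
    by_contra hcon
    obtain ⟨k, hk, hne⟩ := hC m (by omega)
    exact hne (hm.comm (by omega) (by omega))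
  have hmain : 2 * r ≤ 3 * m + 3 := by
    by_contra hcon
    have hw : ∀ i, i + m + 2 ≤ r → ⁅el g b i, el g b (i + m + 1)⁆ ∈ win g b (r - 1 - m) (2 * m + 2 - r) :=
      fun i hi => h.center_win hm hf hmr
        (win_mono g b (Nat.zero_le _) (by omega) (h.comm_mem (i := i) (d := m) (by omega)))
        fun q hq => h.comm_central hm hlong hi hq
    have h1 := hw (r - 2 - m) (by omega)
    have h2 : ⁅el g b (r - 2 - m), el g b (r - 2 - m + m + 1)⁆ ∈
        win g b (r - 1 - m + (r - 2 - m)) (2 * m + 2 - r) := by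
      have e : ⁅el g b (r - 2 - m), el g b (r - 2 - m + m + 1)⁆ =
          g ^ (r - 2 - m) * ⁅el g b 0, el g b (0 + m + 1)⁆ * (g ^ (r - 2 - m))⁻¹ := by
        rw [conjugate_commutatorElement, ← el_add, ← el_add]
        congr 2 <;> omega
      rw [e, ← cj_win g b (r - 1 - m) (2 * m + 2 - r) (r - 2 - m), conj_mem_cj]
      exact hw 0 (by omega)
    have h3 := h.disjoint _ _ _ _ (by omega) (by omega) _ h1 h2
    exact not_commute_far hf (r - 2 - m) (commutatorElement_eq_one_iff_mul_comm.mp h3)
  omega

end CfsgLib.PChain
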